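import Cfsg.Agent.Perm.AffineSpectrum

/-!
# A group over `SL₂(4)` with a minimal normal subgroup on which elements of order three act freely

Such a split extension is the affine group `F² ⋊ SL₂(F)`.
-/

set_option autoImplicit false

namespace CfsgLib.SpecCrit

open Matrix

variable {F : Type*} [Field F]

/-- The matrix `[[a, b], [c, d]]`. -/
def mk2 (a b c d : F) (h : a * d - b * c = 1) : SpecialLinearGroup (Fin 2) F :=
  ⟨!![a, b; c, d], by rw [Matrix.det_fin_two_of]; exact h⟩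

@[simp] theorem mk2_coe (a b c d : F) (h : a * d - b * c = 1) :
    (mk2 a b c d h : Matrix (Fin 2) (Fin 2) F) = !![a, b; c, d] := rfl

theorem val_mul (A B : SpecialLinearGroup (Fin 2) F) : (A * B).1 = A.1 * B.1 := rfl

/-- The action on pairs. -/
def act (A : SpecialLinearGroup (Fin 2) F) (p : F × F) : F × F :=
  (A.1 0 0 * p.1 + A.1 0 1 * p.2, A.1 1 0 * p.1 + A.1 1 1 * p.2)

theorem act_one (p : F × F) : act 1 p = p := by simp [act]

theorem act_mul (A B : SpecialLinearGroup (Fin 2) F) (p : F × F) :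
    act (A * B) p = act A (act B p) := by
  simp only [act, val_mul, Matrix.mul_apply, Fin.sum_univ_two]
  ext <;> simp only [] <;> ring

theorem act_add (A : SpecialLinearGroup (Fin 2) F) (p q : F × F) :
    act A (p + q) = act A p + act A q := by
  simp only [act, Prod.fst_add, Prod.snd_add, Prod.mk_add_mk]
  ext <;> simp only [] <;> ring

theorem act_zero (A : SpecialLinearGroup (Fin 2) F) : act A 0 = 0 := by
  ext <;> simp [act]

theorem act_e1 (A : SpecialLinearGroup (Fin 2) F) : act A (1, 0) = (A.1 0 0, A.1 1 0) := by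
  simp [act]

/-- Upper unitriangular matrices. -/
def upperTwo (b : F) : SpecialLinearGroup (Fin 2) F := mk2 1 b 0 1 (by ring)

theorem upperTwo_add (a b : F) : upperTwo (a + b) = upperTwo a * upperTwo b := by
  ext i j
  fin_cases i <;> fin_cases j <;> simp [upperTwo, Matrix.mul_apply, Fin.sum_univ_two, add_comm]

theorem upperTwo_zero : upperTwo (0 : F) = 1 := by
  ext i j
  fin_cases i <;> fin_cases j <;> simp [upperTwo]

theorem upperTwo_ne {b : F} (hb : b ≠ 0) : upperTwo b ≠ 1 := fun h => hb (by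
  simpa [upperTwo] using congrArg (fun A : SpecialLinearGroup (Fin 2) F => A.1 0 1) h)

theorem eq_upperTwo {B : SpecialLinearGroup (Fin 2) F} (h : act B (1, 0) = (1, 0)) :
    B = upperTwo (B.1 0 1) := by
  rw [act_e1, Prod.mk.injEq] at h
  have hd := B.2
  rw [Matrix.det_fin_two, h.1, h.2] at hd
  ext i j
  fin_cases i <;> fin_cases j
  · simpa [upperTwo] using h.1
  · simp [upperTwo]
  · simpa [upperTwo] using h.2
  · have : B.1 1 1 = 1 := by linear_combination hd
    simpa [upperTwo] using this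

theorem exists_firstCol {p : F × F} (hp : p ≠ 0) :
    ∃ A : SpecialLinearGroup (Fin 2) F, act A (1, 0) = p := by
  obtain ⟨a, c⟩ := p
  by_cases ha : a = 0
  · subst ha
    have hc : c ≠ 0 := fun h => hp (by rw [h]; rfl)
    exact ⟨mk2 0 (-c⁻¹) c 0 (by simp [hc]), by simp [act_e1]⟩
  · exact ⟨mk2 a 0 c a⁻¹ (by field_simp; ring), by simp [act_e1]⟩

section

variable [Fintype F]

theorem exists_omega (hF : Fintype.card F = 4) :
    ∃ w : F, w ≠ 0 ∧ w ≠ 1 ∧ w * w + w + 1 = 0 := by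
  classical
  obtain ⟨w, hw⟩ : ∃ w : F, w ∉ ({0, 1} : Finset F) := by
    by_contra h
    push Not at h
    have := Finset.card_le_card (fun x (_ : x ∈ Finset.univ) => h x)
    rw [Finset.card_univ, hF] at this
    exact absurd (this.trans Finset.card_le_two) (by omega)
  simp only [Finset.mem_insert, Finset.mem_singleton, not_or] at hw
  refine ⟨w, hw.1, hw.2, ?_⟩
  have h3 : w ^ 3 = 1 := by simpa [hF] using FiniteField.pow_card_sub_one_eq_one w hw.1
  exact mul_left_cancel₀ (sub_ne_zero.mpr hw.2) (by linear_combination h3)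

theorem char_two_of_card (hF : Fintype.card F = 4) : CharP F 2 := by
  obtain ⟨p, hp⟩ := CharP.exists F
  haveI := hp
  obtain ⟨n, hpr, hn⟩ := FiniteField.card F p
  have h2 : p ∣ 2 ^ 2 := by
    rw [show (2 : ℕ) ^ 2 = 4 from rfl, ← hF, hn]; exact dvd_pow_self p n.pos.ne'
  rwa [← (Nat.prime_dvd_prime_iff_eq hpr Nat.prime_two).1 (hpr.dvd_of_dvd_pow h2)]

theorem sq_add_self {a : F} (hF : Fintype.card F = 4) (h0 : a ≠ 0) (h1 : a ≠ 1) :
    a * a + a + 1 = 0 := by
  have h3 : a ^ 3 = 1 := by simpa [hF] using FiniteField.pow_card_sub_one_eq_one a h0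
  exact mul_left_cancel₀ (sub_ne_zero.mpr h1) (by linear_combination h3)

/-- An element of order three moving `e₁` to `q` and `q` to `e₁ + q`. -/
theorem exists_rot (hF : Fintype.card F = 4) {q : F × F} (hq : q ≠ 0) (hq1 : q ≠ (1, 0)) :
    ∃ C : SpecialLinearGroup (Fin 2) F, C ^ 3 = 1 ∧ C ≠ 1 ∧ act C (1, 0) = q ∧
      act (C * C) (1, 0) = (1, 0) + q := by
  haveI := char_two_of_card hF
  have two : (2 : F) = 0 := CharTwo.two_eq_zero
  obtain ⟨a, c⟩ := q
  obtain ⟨b, hb⟩ : ∃ b : F, a * (a + 1) - b * c = 1 := by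
    by_cases hc : c = 0
    · subst hc
      refine ⟨0, ?_⟩
      have h0 : a ≠ 0 := fun h => hq (by rw [h]; rfl)
      have h1 : a ≠ 1 := fun h => hq1 (by rw [h])
      linear_combination sq_add_self hF h0 h1 - two
    · exact ⟨(a * (a + 1) - 1) / c, by rw [div_mul_cancel₀ _ hc]; ring⟩
  refine ⟨mk2 a b c (a + 1) hb, ?_, ?_, ?_, ?_⟩
  · ext i j
    fin_cases i <;> fin_cases j <;>
      simp [pow_succ, Matrix.mul_apply, Fin.sum_univ_two] <;> grobner
  · intro h
    have e := congrArg (fun A : SpecialLinearGroup (Fin 2) F => A.1 0 0 - A.1 1 1) h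
    simp at e
  · simp [act_e1]
  · simp only [act_e1, val_mul, Matrix.mul_apply, Fin.sum_univ_two, Prod.mk_add_mk]
    ext <;> simp <;> grobner

end

section

variable [Fintype F] {G : Type*} [Group G] (κ : SpecialLinearGroup (Fin 2) F →* G)
  (N : Subgroup G) [N.Normal]

/-- An upper unitriangular group fixes a non-trivial element of `N`. -/
theorem exists_fixed (hF : Fintype.card F = 4) (hcomm : ∀ a ∈ N, ∀ b ∈ N, Commute a b)
    (hsq : ∀ a ∈ N, a * a = 1) (hN : N ≠ ⊥) :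
    ∃ v ∈ N, v ≠ 1 ∧ ∀ b : F, κ (upperTwo b) * v * (κ (upperTwo b))⁻¹ = v := by
  classical
  haveI := char_two_of_card hF
  obtain ⟨w, hw0, hw1, -⟩ := exists_omega hF
  have hstep : ∀ (b b' : F) (d : G), d ∈ N → d ≠ 1 →
      κ (upperTwo b') * d * (κ (upperTwo b'))⁻¹ = d →
      ∃ d' ∈ N, d' ≠ 1 ∧ κ (upperTwo b) * d' * (κ (upperTwo b))⁻¹ = d' ∧
        κ (upperTwo b') * d' * (κ (upperTwo b'))⁻¹ = d' := by
    intro b b' d hd hd1 hdb
    by_cases he : κ (upperTwo b) * d * (κ (upperTwo b))⁻¹ = d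
    · exact ⟨d, hd, hd1, he, hdb⟩
    set u := κ (upperTwo b) with hu
    set u' := κ (upperTwo b') with hu'
    have hud : u * d * u⁻¹ ∈ N := ‹N.Normal›.conj_mem d hd u
    have huu : u * u = 1 := by
      rw [hu, ← map_mul, ← upperTwo_add, CharTwo.add_self_eq_zero, upperTwo_zero, map_one]
    have hcu : u' * u = u * u' := by
      rw [hu, hu', ← map_mul, ← map_mul, ← upperTwo_add, ← upperTwo_add, add_comm]
    refine ⟨d * (u * d * u⁻¹), N.mul_mem hd hud, fun e => he ?_, ?_, ?_⟩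
    · have := eq_inv_of_mul_eq_one_right e
      rw [this]
      exact inv_eq_of_mul_eq_one_right (hsq d hd)
    · calc u * (d * (u * d * u⁻¹)) * u⁻¹ = u * d * u⁻¹ * (u * u * d * (u * u)⁻¹) := by group
        _ = d * (u * d * u⁻¹) := by rw [huu, one_mul, inv_one, mul_one, (hcomm _ hud _ hd).eq]
    · calc u' * (d * (u * d * u⁻¹)) * u'⁻¹
          = u' * d * u'⁻¹ * (u' * u * d * (u' * u)⁻¹) := by group
        _ = u' * d * u'⁻¹ * (u * (u' * d * u'⁻¹) * u⁻¹) := by rw [hcu]; group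
        _ = d * (u * d * u⁻¹) := by rw [hdb]
  obtain ⟨⟨d₀, hd₀⟩, hne⟩ := Subgroup.ne_bot_iff_exists_ne_one.mp hN
  have hd₀1 : d₀ ≠ 1 := fun e => hne (Subtype.ext e)
  obtain ⟨d₁, hd₁, hd₁1, hf1, -⟩ := hstep 1 0 d₀ hd₀ hd₀1 (by simp [upperTwo_zero])
  obtain ⟨v, hv, hv1, hfw, hf1'⟩ := hstep w 1 d₁ hd₁ hd₁1 hf1
  refine ⟨v, hv, hv1, fun b => ?_⟩
  have hadd : κ (upperTwo (w + 1)) * v * (κ (upperTwo (w + 1)))⁻¹ = v := by
    rw [upperTwo_add, map_mul, _root_.mul_inv_rev]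
    calc κ (upperTwo w) * κ (upperTwo 1) * v * ((κ (upperTwo 1))⁻¹ * (κ (upperTwo w))⁻¹)
        = κ (upperTwo w) * (κ (upperTwo 1) * v * (κ (upperTwo 1))⁻¹) * (κ (upperTwo w))⁻¹ := by
          group
      _ = v := by rw [hf1', hfw]
  have h01 : w + 1 ≠ 0 := fun e => hw1 (by rw [← sub_eq_zero, CharTwo.sub_eq_add]; exact e)
  have hall : ({0, 1, w, w + 1} : Finset F) = Finset.univ := by
    apply Finset.eq_univ_of_card
    rw [hF, Finset.card_insert_of_notMem, Finset.card_insert_of_notMem, Finset.card_insert_of_notMem,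
      Finset.card_singleton]
    · simp
    · simp [Ne.symm hw1, hw0]
    · simp [hw0, Ne.symm hw0, Ne.symm h01]
  have hb := hall.ge (Finset.mem_univ b)
  simp only [Finset.mem_insert, Finset.mem_singleton] at hb
  rcases hb with rfl | rfl | rfl | rfl
  · simp [upperTwo_zero]
  · exact hf1'
  · exact hfw
  · exact hadd

variable {κ N}

set_option maxHeartbeats 1000000 in
/-- The affine group is the only such extension. -/
theorem nonempty_equiv_aff (hF : Fintype.card F = 4) (hcomm : ∀ a ∈ N, ∀ b ∈ N, Commute a b)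
    (hsq : ∀ a ∈ N, a * a = 1) (hN : N ≠ ⊥) (hdisj : ∀ A, κ A ∈ N → A = 1)
    (hcover : ∀ g : G, ∃ A, g * (κ A)⁻¹ ∈ N)
    (hfpf : ∀ C : SpecialLinearGroup (Fin 2) F, C ^ 3 = 1 → C ≠ 1 → ∀ d ∈ N,
      κ C * d * (κ C)⁻¹ = d → d = 1)
    (hmin : ∀ M : Subgroup G, M.Normal → M ≤ N → M ≠ ⊥ → M = N) :
    Nonempty (G ≃* Perm.AffineSpectrum.aff F) := by
  classical
  haveI := char_two_of_card hF
  obtain ⟨v, hv, hv1, hvU⟩ := exists_fixed κ N hF hcomm hsq hN
  -- the orbit map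
  choose M hM using fun p : {p : F × F // p ≠ 0} => exists_firstCol p.2
  let φ : F × F → G := fun p =>
    if hp : p = 0 then 1 else κ (M ⟨p, hp⟩) * v * (κ (M ⟨p, hp⟩))⁻¹
  have hφ0 : φ 0 = 1 := dif_pos rfl
  have hφmem : ∀ p, φ p ∈ N := fun p => by
    by_cases hp : p = 0
    · rw [hp, hφ0]; exact N.one_mem
    · simp only [φ, dif_neg hp]; exact ‹N.Normal›.conj_mem v hv _
  have hφne : ∀ p, p ≠ 0 → φ p ≠ 1 := fun p hp e => hv1 (by
    simp only [φ, dif_neg hp] at e
    exact conj_eq_one_iff.mp e)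
  have he1 : ((1, 0) : F × F) ≠ 0 := fun e => one_ne_zero (congrArg Prod.fst e)
  have hkey : ∀ A, φ (act A (1, 0)) = κ A * v * (κ A)⁻¹ := by
    intro A
    have hp : act A (1, 0) ≠ 0 := fun e => he1 (by
      rw [← act_one ((1, 0) : F × F), ← inv_mul_cancel A, act_mul, e, act_zero])
    simp only [φ, dif_neg hp]
    set B := M ⟨_, hp⟩ with hB
    have hBA : act (B⁻¹ * A) (1, 0) = (1, 0) := by
      have hB' : act B (1, 0) = act A (1, 0) := hM ⟨_, hp⟩
      rw [act_mul, ← hB', ← act_mul, inv_mul_cancel, act_one]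
    have hA : A = B * upperTwo ((B⁻¹ * A).1 0 1) := by
      rw [← eq_upperTwo hBA, mul_inv_cancel_left]
    conv_rhs => rw [hA, map_mul, _root_.mul_inv_rev]
    calc κ B * v * (κ B)⁻¹ = κ B * (κ (upperTwo _) * v * (κ (upperTwo _))⁻¹) * (κ B)⁻¹ := by
          rw [hvU ((B⁻¹ * A).1 0 1)]
      _ = _ := by group
  have heq : ∀ A p, φ (act A p) = κ A * φ p * (κ A)⁻¹ := by
    intro A p
    by_cases hp : p = 0
    · rw [hp, act_zero, hφ0]; simp
    · obtain ⟨B, rfl⟩ := exists_firstCol hp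
      rw [← act_mul, hkey, hkey, map_mul, _root_.mul_inv_rev]
      simp only [mul_assoc]
  have hadd1 : ∀ q, φ ((1, 0) + q) = φ (1, 0) * φ q := by
    intro q
    by_cases hq : q = 0
    · rw [hq, add_zero, hφ0, mul_one]
    by_cases hq1 : q = (1, 0)
    · rw [hq1, show ((1, 0) : F × F) + (1, 0) = 0 by ext <;> simp [CharTwo.add_self_eq_zero],
        hφ0, hsq _ (hφmem _)]
    obtain ⟨C, hC3, hC1, hCe, hCCe⟩ := exists_rot hF hq hq1
    set p₁ := φ (1, 0)
    set p₂ := φ q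
    set p₃ := φ ((1, 0) + q)
    have h12 : κ C * p₁ * (κ C)⁻¹ = p₂ := by rw [← heq, hCe]
    have h23 : κ C * p₂ * (κ C)⁻¹ = p₃ := by
      rw [← heq, ← hCe, ← act_mul, hCCe]
    have h31 : κ C * p₃ * (κ C)⁻¹ = p₁ := by
      rw [← heq, ← hCCe, ← act_mul, ← pow_two, ← pow_succ', hC3, act_one]
    have hm1 := hφmem (1, 0)
    have hm2 := hφmem q
    have hm3 := hφmem ((1, 0) + q)
    have hprod : p₁ * p₂ * p₃ = 1 := hfpf C hC3 hC1 _ (N.mul_mem (N.mul_mem hm1 hm2) hm3) (by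
      calc κ C * (p₁ * p₂ * p₃) * (κ C)⁻¹
          = κ C * p₁ * (κ C)⁻¹ * (κ C * p₂ * (κ C)⁻¹) * (κ C * p₃ * (κ C)⁻¹) := by group
        _ = p₂ * p₃ * p₁ := by rw [h12, h23, h31]
        _ = p₁ * p₂ * p₃ := by
          rw [(hcomm _ (N.mul_mem hm2 hm3) _ hm1).eq, ← mul_assoc])
    calc p₃ = (p₁ * p₂) * (p₁ * p₂ * p₃) := by
          rw [← mul_assoc, hsq _ (N.mul_mem hm1 hm2), one_mul]
      _ = p₁ * p₂ := by rw [hprod, mul_one]
  have hadd : ∀ p q, φ (p + q) = φ p * φ q := by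
    intro p q
    by_cases hp : p = 0
    · rw [hp, zero_add, hφ0, one_mul]
    obtain ⟨A, hA⟩ := exists_firstCol hp
    obtain ⟨q, rfl⟩ : ∃ q', q = act A q' :=
      ⟨act A⁻¹ q, by rw [← act_mul, mul_inv_cancel, act_one]⟩
    rw [← hA, ← act_add, heq, hadd1, heq, heq]
    group
  have hinj : ∀ p, φ p = 1 → p = 0 := fun p h => by_contra fun hp => hφne p hp h
  -- the image is everything
  have himg : ∀ d ∈ N, ∃ p, φ p = d := by
    let S : Subgroup G :=
      { carrier := Set.range φ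
        one_mem' := ⟨0, hφ0⟩
        mul_mem' := by rintro _ _ ⟨p, rfl⟩ ⟨q, rfl⟩; exact ⟨p + q, hadd p q⟩
        inv_mem' := by
          rintro _ ⟨p, rfl⟩
          exact ⟨p, (inv_eq_of_mul_eq_one_right (hsq _ (hφmem p))).symm⟩ }
    have hSn : S.Normal := ⟨by
      rintro _ ⟨p, rfl⟩ g
      obtain ⟨A, hA⟩ := hcover g
      refine ⟨act A p, ?_⟩
      set d := g * (κ A)⁻¹ with hd
      calc φ (act A p) = d * φ (act A p) * d⁻¹ := by
            rw [(hcomm _ hA _ (hφmem _)).eq, mul_inv_cancel_right]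
        _ = d * (κ A * φ p * (κ A)⁻¹) * d⁻¹ := by rw [heq]
        _ = g * φ p * g⁻¹ := by rw [hd]; group⟩
    have hSN : S ≤ N := by rintro _ ⟨p, rfl⟩; exact hφmem p
    have := hmin S hSn hSN fun e => hφne _ he1 (Subgroup.mem_bot.mp (e.le ⟨(1, 0), rfl⟩))
    intro d hd
    exact this.ge hd
  -- the isomorphism
  have hblock : ∀ X : Perm.AffineSpectrum.aff F,
      X.1.1 0 0 * X.1.1 1 1 - X.1.1 0 1 * X.1.1 1 0 = 1 := by
    intro X
    obtain ⟨h0, h1, h2⟩ := X.2
    have hd := X.1.2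
    rw [Matrix.det_fin_three, h0, h1, h2] at hd
    linear_combination hd
  let lin : Perm.AffineSpectrum.aff F → SpecialLinearGroup (Fin 2) F := fun X =>
    mk2 (X.1.1 0 0) (X.1.1 0 1) (X.1.1 1 0) (X.1.1 1 1) (hblock X)
  let tra : Perm.AffineSpectrum.aff F → F × F := fun X => (X.1.1 0 2, X.1.1 1 2)
  have hlin : ∀ X Y, lin (X * Y) = lin X * lin Y ∧ tra (X * Y) = tra X + act (lin X) (tra Y) := by
    intro X Y
    obtain ⟨h0, h1, h2⟩ := Y.2
    constructor
    · ext i j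
      fin_cases i <;> fin_cases j <;>
        simp [lin, Matrix.mul_apply, Fin.sum_univ_three, Fin.sum_univ_two, h0, h1]
    · ext <;> simp [tra, lin, act, Matrix.mul_apply, Fin.sum_univ_three, h2] <;> ring
  let Φ : Perm.AffineSpectrum.aff F →* G :=
    MonoidHom.mk' (fun X => φ (tra X) * κ (lin X)) (fun X Y => by
      rw [(hlin X Y).1, (hlin X Y).2, hadd, heq, map_mul]
      group)
  refine ⟨(MulEquiv.ofBijective Φ ⟨(injective_iff_map_eq_one Φ).mpr fun X hX => ?_, fun g => ?_⟩).symm⟩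
  · change φ (tra X) * κ (lin X) = 1 at hX
    have hl : lin X = 1 := hdisj _ (by
      rw [eq_inv_of_mul_eq_one_right hX]; exact N.inv_mem (hφmem _))
    rw [hl, map_one, mul_one] at hX
    have ht := hinj _ hX
    simp only [tra, Prod.mk_eq_zero] at ht
    have e := fun i j => congrArg (fun A : SpecialLinearGroup (Fin 2) F => A.1 i j) hl
    have e00 : X.1.1 0 0 = 1 := e 0 0
    have e01 : X.1.1 0 1 = 0 := e 0 1
    have e10 : X.1.1 1 0 = 0 := e 1 0
    have e11 : X.1.1 1 1 = 1 := e 1 1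
    obtain ⟨h0, h1, h2⟩ := X.2
    obtain ⟨t0, t1⟩ := ht
    apply Subtype.ext
    apply Subtype.ext
    show X.1.1 = 1
    rw [Matrix.eta_fin_three X.1.1, e00, e01, e10, e11, h0, h1, h2, t0, t1, Matrix.one_fin_three]
  · obtain ⟨A, hA⟩ := hcover g
    obtain ⟨p, hp⟩ := himg _ hA
    have hd : A.1 0 0 * A.1 1 1 - A.1 0 1 * A.1 1 0 = 1 := by
      rw [← Matrix.det_fin_two]; exact A.2
    let Y : SpecialLinearGroup (Fin 3) F :=
      ⟨!![A.1 0 0, A.1 0 1, p.1; A.1 1 0, A.1 1 1, p.2; 0, 0, 1], by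
        simp [Matrix.det_fin_three]; linear_combination hd⟩
    have hY : Y ∈ Perm.AffineSpectrum.aff F := ⟨rfl, rfl, rfl⟩
    refine ⟨⟨Y, hY⟩, ?_⟩
    have hl : lin ⟨Y, hY⟩ = A := by
      apply Subtype.ext
      exact (Matrix.eta_fin_two A.1).symm
    have ht : tra ⟨Y, hY⟩ = p := rfl
    change φ (tra ⟨Y, hY⟩) * κ (lin ⟨Y, hY⟩) = g
    rw [hl, ht, hp, inv_mul_cancel_right]

end

end CfsgLib.SpecCrit
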